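import Mathlib

/-!
# S4351 (Martineau), piece P6a, step (1): biadditive equivariant maps and semilinear maps (helper93)
-/

set_option autoImplicit false
set_option linter.all false

namespace Cfsg.Agent.H93.MtP6a1

variable {F : Type*} [Field F] [Fintype F] {V1 V2 V3 : Type*} [AddCommGroup V1] [AddCommGroup V2] [AddCommGroup V3]
  [Module F V1] [Module F V2] [Module F V3]

open scoped Classical in
/-- the `c ↦ c ^ j` component in the second variable -/
noncomputable def tw (B : V1 →+ V2 →+ V3) (j : ℕ) : V1 →+ V2 →+ V3 :=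
  AddMonoidHom.mk' (fun x => AddMonoidHom.mk' (fun y => ∑ c : Fˣ, (((c⁻¹ : Fˣ) : F) ^ j) • B x ((c : F) • y)) (by
    intro y z
    rw [← Finset.sum_add_distrib]
    refine Finset.sum_congr rfl fun c _ => ?_
    rw [smul_add, map_add, smul_add])) (by
    intro x z
    ext y
    simp only [AddMonoidHom.mk'_apply, AddMonoidHom.add_apply, map_add, smul_add, Finset.sum_add_distrib])

open scoped Classical in
theorem tw_apply (B : V1 →+ V2 →+ V3) (j : ℕ) (x : V1) (y : V2) :
    tw (F := F) B j x y = ∑ c : Fˣ, (((c⁻¹ : Fˣ) : F) ^ j) • B x ((c : F) • y) := rfl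

open scoped Classical in
theorem tw_smul (B : V1 →+ V2 →+ V3) (j : ℕ) (d : Fˣ) (x : V1) (y : V2) :
    tw (F := F) B j x ((d : F) • y) = ((d : F) ^ j) • tw (F := F) B j x y := by
  rw [tw_apply, tw_apply, Finset.smul_sum]
  refine Fintype.sum_equiv (Equiv.mulRight d) _ _ (fun c => ?_)
  rw [Equiv.coe_mulRight, smul_smul, smul_smul]
  congr 2
  · rw [mul_inv_rev, Units.val_mul, mul_pow, ← mul_assoc, ← mul_pow, Units.mul_inv, one_pow, one_mul]

open scoped Classical in
theorem sum_tw (B : V1 →+ V2 →+ V3) (x : V1) (y : V2) :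
    ∑ j ∈ Finset.range (Fintype.card Fˣ), tw (F := F) B j x y = -(B x y) := by
  simp only [tw_apply]
  rw [Finset.sum_comm]
  simp only [← Finset.sum_smul]
  rw [Finset.sum_eq_single (1 : Fˣ)]
  · have h1 : (Fintype.card Fˣ : F) = -1 := by
      have h2 : Fintype.card Fˣ + 1 = Fintype.card F := by
        have := Fintype.card_units F
        have h3 : 1 < Fintype.card F := Fintype.one_lt_card
        omega
      have h3 : ((Fintype.card Fˣ + 1 : ℕ) : F) = 0 := by rw [h2]; exact FiniteField.cast_card_eq_zero F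
      push_cast at h3
      exact eq_neg_of_add_eq_zero_left h3
    simp only [inv_one, Units.val_one, one_pow, Finset.sum_const, Finset.card_range, nsmul_eq_mul, mul_one, one_smul]
    rw [h1, neg_one_smul]
  · intro c _ hc
    have h1 : (((c⁻¹ : Fˣ) : F)) - 1 ≠ 0 := by
      intro h
      apply hc
      have h2 : ((c⁻¹ : Fˣ) : F) = 1 := sub_eq_zero.1 h
      have h3 : c⁻¹ = 1 := Units.ext h2
      exact inv_eq_one.1 h3
    have h2 : (∑ j ∈ Finset.range (Fintype.card Fˣ), (((c⁻¹ : Fˣ) : F)) ^ j) * ((((c⁻¹ : Fˣ) : F)) - 1) = 0 := by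
      rw [geom_sum_mul, ← Units.val_pow_eq_pow_val, pow_card_eq_one, Units.val_one, sub_self]
    rcases mul_eq_zero.1 h2 with h3 | h3
    · rw [h3, zero_smul]
    · exact absurd h3 h1
  · intro h
    exact absurd (Finset.mem_univ _) h

theorem exists_tw (B : V1 →+ V2 →+ V3) (h0 : B ≠ 0) : ∃ j : ℕ, tw (F := F) B j ≠ 0 := by
  classical
  by_contra hcon
  push Not at hcon
  apply h0
  ext x y
  have h1 := sum_tw (F := F) B x y
  have h2 : ∑ j ∈ Finset.range (Fintype.card Fˣ), tw (F := F) B j x y = 0 := by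
    apply Finset.sum_eq_zero
    intro j _
    rw [hcon j]; rfl
  rw [h2] at h1
  exact (neg_eq_zero.1 h1.symm)

/-- a nonzero biadditive map which is multiplicatively homogeneous in the second variable is semilinear -/
theorem exists_aut (B : V1 →+ V2 →+ V3) (h0 : B ≠ 0) (j : ℕ)
    (h : ∀ (d : Fˣ) x y, B x ((d : F) • y) = ((d : F) ^ j) • B x y) :
    ∃ τ : F ≃+* F, ∀ (c : F) x y, B x (c • y) = τ c • B x y := by
  classical
  obtain ⟨x0, y0, hz⟩ : ∃ x0 y0, B x0 y0 ≠ 0 := by
    by_contra hcon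
    push Not at hcon
    apply h0
    ext x y
    exact hcon x y
  let t : F → F := fun c => if c = 0 then 0 else c ^ j
  have ht : ∀ (c : F) x y, B x (c • y) = t c • B x y := by
    intro c x y
    by_cases hc : c = 0
    · simp [t, hc]
    · have h1 := h (Units.mk0 c hc) x y
      simp only [Units.val_mk0] at h1
      simp only [t, hc, if_false]
      exact h1
  have hinj : ∀ c d : F, c • B x0 y0 = d • B x0 y0 → c = d := fun c d hcd => smul_left_injective F hz hcd
  have t1 : t 1 = 1 := by simp [t]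
  have t0 : t 0 = 0 := by simp [t]
  have tmul : ∀ c d, t (c * d) = t c * t d := by
    intro c d
    by_cases hc : c = 0
    · simp [t, hc]
    · by_cases hd : d = 0
      · simp [t, hd]
      · simp [t, hc, hd, mul_pow]
  have tadd : ∀ c d, t (c + d) = t c + t d := by
    intro c d
    apply hinj
    rw [← ht, add_smul, map_add, ht, ht, add_smul]
  let φ : F →+* F :=
    { toFun := t
      map_one' := t1
      map_mul' := tmul
      map_zero' := t0
      map_add' := tadd }
  have hbij : Function.Bijective φ := (Finite.injective_iff_bijective).1 φ.injective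
  exact ⟨RingEquiv.ofBijective φ hbij, fun c x y => ht c x y⟩

variable {X : Type*} [Group X]

theorem step (ρ1 : X →* AddMonoid.End V1) (ρ2 : Representation F X V2) (ρ3 : Representation F X V3) (B : V1 →+ V2 →+ V3)
    (hB : ∀ g x y, B (ρ1 g x) (ρ2 g y) = ρ3 g (B x y)) (h0 : B ≠ 0) :
    ∃ (B1 : V1 →+ V2 →+ V3) (τ : F ≃+* F), B1 ≠ 0 ∧ (∀ g x y, B1 (ρ1 g x) (ρ2 g y) = ρ3 g (B1 x y)) ∧
      (∀ (c : F) x y, B1 x (c • y) = τ c • B1 x y) ∧
      (∀ σ : F → F, (∀ (c : F) x y, B (c • x) y = σ c • B x y) → ∀ (c : F) x y, B1 (c • x) y = σ c • B1 x y) := by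
  classical
  obtain ⟨j, hj⟩ := exists_tw (F := F) B h0
  obtain ⟨τ, hτ⟩ := exists_aut (tw (F := F) B j) hj j (fun d x y => tw_smul B j d x y)
  refine ⟨tw (F := F) B j, τ, hj, ?_, hτ, ?_⟩
  · intro g x y
    rw [tw_apply, tw_apply, map_sum]
    refine Finset.sum_congr rfl fun c _ => ?_
    rw [map_smul (ρ3 g), ← hB, map_smul (ρ2 g)]
  · intro σ hσ c x y
    rw [tw_apply, tw_apply, Finset.smul_sum]
    refine Finset.sum_congr rfl fun d _ => ?_
    rw [hσ, smul_smul, smul_smul, mul_comm]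

/-- **P6a, step (1)** -/
theorem semilin (ρ1 : Representation F X V1) (ρ2 : Representation F X V2) (ρ3 : Representation F X V3)
    (B : V1 →+ V2 →+ V3) (hB : ∀ g x y, B (ρ1 g x) (ρ2 g y) = ρ3 g (B x y)) (h0 : B ≠ 0) :
    ∃ (B1 : V1 →+ V2 →+ V3) (σ τ : F ≃+* F), B1 ≠ 0 ∧ (∀ g x y, B1 (ρ1 g x) (ρ2 g y) = ρ3 g (B1 x y)) ∧
      (∀ (c : F) x y, B1 (c • x) y = σ c • B1 x y) ∧ (∀ (c : F) x y, B1 x (c • y) = τ c • B1 x y) := by
  let a1 : X →* AddMonoid.End V1 :=
    { toFun := fun g => (ρ1 g).toAddMonoidHom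
      map_one' := by (ext v; show ρ1 1 v = v; rw [map_one]; rfl)
      map_mul' := fun g h => by (ext v; show ρ1 (g * h) v = ρ1 g (ρ1 h v); rw [map_mul]; rfl) }
  let a2 : X →* AddMonoid.End V2 :=
    { toFun := fun g => (ρ2 g).toAddMonoidHom
      map_one' := by (ext v; show ρ2 1 v = v; rw [map_one]; rfl)
      map_mul' := fun g h => by (ext v; show ρ2 (g * h) v = ρ2 g (ρ2 h v); rw [map_mul]; rfl) }
  obtain ⟨B1, τ, h1, h2, h3, -⟩ := step (F := F) a1 ρ2 ρ3 B (fun g x y => hB g x y) h0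
  obtain ⟨B2, σ, h4, h5, h6, h7⟩ := step (F := F) a2 ρ1 ρ3 B1.flip (fun g y x => h2 g x y) (by
    intro h
    apply h1
    ext x y
    have := congrArg (fun f : V2 →+ V1 →+ V3 => f y x) h
    exact this)
  refine ⟨B2.flip, σ, τ, ?_, fun g x y => h5 g y x, fun c x y => h6 c y x, fun c x y => ?_⟩
  · intro h
    apply h4
    ext y x
    exact congrArg (fun f : V1 →+ V2 →+ V3 => f x y) h
  · exact h7 τ (fun c y x => h3 c x y) c y x

end Cfsg.Agent.H93.MtP6a1
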