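import Mathlib
import Cfsg.Prelude.Def_Transfer
import Cfsg.Agent.Asch.ExtraCount
import Cfsg.Agent.Extra.Basic
import Cfsg.Agent.Solv.Core
set_option autoImplicit false
set_option linter.unusedSectionVars false

/-!
Large extraspecial 2-subgroups: the family `Q x = O₂(C_G(x))`.
-/

namespace Cfsg.Agent.H93.LargeEx

open Cfsg Cfsg.Agent.Asch.ExtraCount
open scoped commutatorElement

variable {G : Type*} [Group G]

/-- `E` is extraspecial-like with centre `{1, z}` -/
structure ExIn (E : Subgroup G) (z : G) : Prop where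
  mem : z ∈ E
  central : ∀ x ∈ E, z * x = x * z
  ne_one : z ≠ 1
  sq : z * z = 1
  com : ∀ x ∈ E, ∀ y ∈ E, x * y = y * x ∨ x * y = z * (y * x)
  sqs : ∀ x ∈ E, x * x = 1 ∨ x * x = z
  cen : ∀ x ∈ E, (∀ y ∈ E, x * y = y * x) → x = 1 ∨ x = z

namespace ExIn

variable {E : Subgroup G} {z : G}

theorem exSp (h : ExIn E z) : ExSp E ⟨z, h.mem⟩ where
  central x := Subtype.ext (h.central x x.2)
  ne_one h1 := h.ne_one (congrArg (fun x : E => (x : G)) h1)
  sq := Subtype.ext h.sq
  com x y := by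
    rcases h.com x x.2 y y.2 with h1 | h1
    · left; exact Subtype.ext h1
    · right; exact Subtype.ext h1
  sqs x := by
    rcases h.sqs x x.2 with h1 | h1
    · left; exact Subtype.ext h1
    · right; exact Subtype.ext h1
  cen x hx := by
    rcases h.cen x x.2 (fun y hy => congrArg (fun x : E => (x : G)) (hx ⟨y, hy⟩)) with h1 | h1
    · left; exact Subtype.ext h1
    · right; exact Subtype.ext h1

/-- `|A| |C_E(A)| = 2 |E|` -/
theorem card_mul [Finite G] (h : ExIn E z) {A : Subgroup G} (hA : A ≤ E) (hz : z ∈ A) :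
    Nat.card A * Nat.card (E ⊓ Subgroup.centralizer (A : Set G) : Subgroup G) = 2 * Nat.card E := by
  classical
  have := Fintype.ofFinite E
  have h1 := h.exSp.card_mul_card (A.subgroupOf E) (show (⟨z, h.mem⟩ : E) ∈ A.subgroupOf E from hz)
  have h2 : Nat.card (A.subgroupOf E) = Nat.card A := by
    exact Nat.card_congr (Subgroup.subgroupOfEquivOfLe hA).toEquiv
  have h3 : (E ⊓ Subgroup.centralizer (A : Set G) : Subgroup G) =
      (Subgroup.centralizer ((A.subgroupOf E : Subgroup E) : Set E)).map E.subtype := by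
    ext x
    simp only [Subgroup.mem_inf, Subgroup.mem_centralizer_iff, Subgroup.mem_map]
    constructor
    · rintro ⟨hx, hx'⟩
      refine ⟨⟨x, hx⟩, ?_, rfl⟩
      intro y hy
      exact Subtype.ext (hx' y hy)
    · rintro ⟨y, hy, rfl⟩
      refine ⟨y.2, ?_⟩
      intro a ha
      exact congrArg (fun x : E => (x : G)) (hy ⟨a, hA ha⟩ ha)
  have h4 : Nat.card (E ⊓ Subgroup.centralizer (A : Set G) : Subgroup G) =
      Nat.card (Subgroup.centralizer ((A.subgroupOf E : Subgroup E) : Set E)) := by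
    rw [h3]
    exact Nat.card_congr ((Subgroup.equivMapOfInjective _ E.subtype E.subtype_injective).toEquiv).symm
  rw [h4, ← h2]
  exact h1

theorem mem_centralizer_of (h : ExIn E z) {A : Subgroup G} (hA : A ≤ E) : z ∈ E ⊓ Subgroup.centralizer (A : Set G) := by
  refine Subgroup.mem_inf.2 ⟨h.mem, ?_⟩
  rw [Subgroup.mem_centralizer_iff]
  intro y hy
  exact (h.central y (hA hy)).symm

/-- double centralizer -/
theorem double [Finite G] (h : ExIn E z) {A : Subgroup G} (hA : A ≤ E) (hz : z ∈ A) :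
    E ⊓ Subgroup.centralizer ((E ⊓ Subgroup.centralizer (A : Set G) : Subgroup G) : Set G) = A := by
  have h1 := h.card_mul hA hz
  have h2 := h.card_mul (A := E ⊓ Subgroup.centralizer (A : Set G)) inf_le_left (h.mem_centralizer_of hA)
  have hle : A ≤ E ⊓ Subgroup.centralizer ((E ⊓ Subgroup.centralizer (A : Set G) : Subgroup G) : Set G) := by
    intro x hx
    refine Subgroup.mem_inf.2 ⟨hA hx, ?_⟩
    rw [Subgroup.mem_centralizer_iff]
    intro y hy
    exact (Subgroup.mem_centralizer_iff.1 (Subgroup.mem_inf.1 hy).2 x hx).symm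
  symm
  apply Subgroup.eq_of_le_of_card_ge hle
  have h3 : 0 < Nat.card (E ⊓ Subgroup.centralizer (A : Set G) : Subgroup G) := Nat.card_pos
  rw [← h1, mul_comm] at h2
  exact (Nat.eq_of_mul_eq_mul_right h3 h2).le

/-- an element of `E` outside `A` is moved by an element of `C_E(A)` -/
theorem exists_move [Finite G] (h : ExIn E z) {A : Subgroup G} (hA : A ≤ E) (hz : z ∈ A) {y : G} (hy : y ∈ E) (hyA : y ∉ A) :
    ∃ t ∈ E, (∀ a ∈ A, t * a = a * t) ∧ t * y * t⁻¹ = z * y := by
  have h1 : y ∉ E ⊓ Subgroup.centralizer ((E ⊓ Subgroup.centralizer (A : Set G) : Subgroup G) : Set G) := by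
    rw [h.double hA hz]; exact hyA
  have h2 : y ∉ Subgroup.centralizer ((E ⊓ Subgroup.centralizer (A : Set G) : Subgroup G) : Set G) :=
    fun h3 => h1 (Subgroup.mem_inf.2 ⟨hy, h3⟩)
  rw [Subgroup.mem_centralizer_iff] at h2
  push Not at h2
  obtain ⟨t, ht0, hne⟩ := h2
  have htE : t ∈ E := (Subgroup.mem_inf.1 ht0).1
  have htA := Subgroup.mem_centralizer_iff.1 (Subgroup.mem_inf.1 ht0).2
  refine ⟨t, htE, fun a ha => (htA a ha).symm, ?_⟩
  rcases h.com t htE y hy with h3 | h3
  · exact absurd h3 hne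
  · rw [h3]; group

theorem exists_noncomm (h : ExIn E z) {y : G} (hy : y ∈ E) (h1 : y ≠ 1) (hz : y ≠ z) :
    ∃ t ∈ E, t * y * t⁻¹ = z * y := by
  by_contra hcon
  push Not at hcon
  rcases h.cen y hy (by
    intro t ht
    rcases h.com t ht y hy with h3 | h3
    · exact h3.symm
    · exfalso
      apply hcon t ht
      rw [h3]; group) with h2 | h2
  · exact h1 h2
  · exact hz h2

theorem conj (h : ExIn E z) (g : G) : ExIn (E.map (MulAut.conj g).toMonoidHom) (g * z * g⁻¹) := by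
  have key : ∀ {x}, x ∈ E.map (MulAut.conj g).toMonoidHom → ∃ y ∈ E, x = g * y * g⁻¹ := by
    rintro x ⟨y, hy, rfl⟩
    exact ⟨y, hy, rfl⟩
  refine ⟨⟨z, h.mem, rfl⟩, ?_, ?_, ?_, ?_, ?_, ?_⟩
  · intro x hx
    obtain ⟨y, hy, rfl⟩ := key hx
    have := h.central y hy
    calc g * z * g⁻¹ * (g * y * g⁻¹) = g * (z * y) * g⁻¹ := by group
      _ = _ := by rw [this]; group
  · intro h1
    apply h.ne_one
    have h2 : z = g⁻¹ * (g * z * g⁻¹) * g := by group
    rw [h2, h1]; group
  · calc g * z * g⁻¹ * (g * z * g⁻¹) = g * (z * z) * g⁻¹ := by group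
      _ = _ := by rw [h.sq]; group
  · intro x hx y hy
    obtain ⟨a, ha, rfl⟩ := key hx
    obtain ⟨b, hb, rfl⟩ := key hy
    rcases h.com a ha b hb with h1 | h1
    · left
      calc g * a * g⁻¹ * (g * b * g⁻¹) = g * (a * b) * g⁻¹ := by group
        _ = _ := by rw [h1]; group
    · right
      calc g * a * g⁻¹ * (g * b * g⁻¹) = g * (a * b) * g⁻¹ := by group
        _ = _ := by rw [h1]; group
  · intro x hx
    obtain ⟨a, ha, rfl⟩ := key hx
    rcases h.sqs a ha with h1 | h1
    · left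
      calc g * a * g⁻¹ * (g * a * g⁻¹) = g * (a * a) * g⁻¹ := by group
        _ = _ := by rw [h1]; group
    · right
      calc g * a * g⁻¹ * (g * a * g⁻¹) = g * (a * a) * g⁻¹ := by group
        _ = _ := by rw [h1]
  · intro x hx hc
    obtain ⟨a, ha, rfl⟩ := key hx
    rcases h.cen a ha (by
      intro b hb
      have h1 := hc _ ⟨b, hb, rfl⟩
      have h2 : a * b = g⁻¹ * ((g * a * g⁻¹) * (g * b * g⁻¹)) * g := by group
      have h3 : (g * a * g⁻¹) * (g * b * g⁻¹) = (g * b * g⁻¹) * (g * a * g⁻¹) := h1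
      rw [h2, h3]; group) with h1 | h1
    · left; rw [h1]; group
    · right; rw [h1]

end ExIn

/-- the large extraspecial setting -/
structure LX (Q : G → Subgroup G) (z : G) : Prop where
  conj : ∀ g x : G, Q (g * x * g⁻¹) = (Q x).map (MulAut.conj g).toMonoidHom
  ex : ExIn (Q z) z
  cent : Subgroup.centralizer ((Q z : Subgroup G) : Set G) ≤ Q z
  norm : ∀ g ∈ Subgroup.centralizer ({z} : Set G), ∀ q ∈ Q z, g * q * g⁻¹ ∈ Q z

theorem mk_LX [Finite G] (Q : G → Subgroup G)
    (hQ : ∀ x : G, Q x = (Cfsg.pCore 2 ↥(Subgroup.centralizer ({x} : Set G))).map (Subgroup.centralizer ({x} : Set G)).subtype)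
    (z : G) (hz : orderOf z = 2) (hE : Cfsg.IsExtraspecial 2 ↥(Q z))
    (hC : Subgroup.centralizer ((Q z : Subgroup G) : Set G) ≤ Q z) : LX Q z := by
  have _f : Fact (Nat.Prime 2) := ⟨Nat.prime_two⟩
  have hle : Q z ≤ Subgroup.centralizer ({z} : Set G) := by
    rw [hQ]; exact Subgroup.map_subtype_le _
  have hges := Extra.ges_of_isExtraspecial hE
  have hzQ : z ∈ Q z := by
    apply hC
    rw [Subgroup.mem_centralizer_iff]
    intro y hy
    have := hle hy
    rw [Subgroup.mem_centralizer_singleton_iff] at this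
    exact this
  have hz1 : z ≠ 1 := by
    rintro rfl
    rw [orderOf_one] at hz
    omega
  have hzc : (⟨z, hzQ⟩ : Q z) ∈ Subgroup.center (Q z) := by
    rw [Subgroup.mem_center_iff]
    intro y
    have := hle y.2
    rw [Subgroup.mem_centralizer_singleton_iff] at this
    exact Subtype.ext this
  have hcen : ∀ x : Q z, x ∈ Subgroup.center (Q z) → (x : G) = 1 ∨ (x : G) = z := by
    intro x hx
    have h1 := hges.card_center
    have h2 : ((Subgroup.center (Q z) : Subgroup (Q z)) : Set (Q z)) = {1, ⟨z, hzQ⟩} := by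
      symm
      apply Set.eq_of_subset_of_ncard_le
      · rintro y (rfl | h3)
        · exact Subgroup.one_mem _
        · rw [Set.mem_singleton_iff] at h3
          rw [h3]; exact hzc
      · rw [Set.ncard_pair (by
          intro h3
          exact hz1 (congrArg (fun y : Q z => (y : G)) h3).symm), ← Nat.card_coe_set_eq]
        exact h1.le
      · exact Set.toFinite _
    have h3 : x ∈ ((Subgroup.center (Q z) : Subgroup (Q z)) : Set (Q z)) := hx
    rw [h2] at h3
    rcases h3 with h3 | h3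
    · left; rw [h3]; rfl
    · right; rw [Set.mem_singleton_iff] at h3; rw [h3]
  refine ⟨?_, ⟨hzQ, ?_, hz1, ?_, ?_, ?_, ?_⟩, hC, ?_⟩
  · intro g x
    -- conjugation
    have hsub : ∀ g x : G, (Q x).map (MulAut.conj g).toMonoidHom ≤ Q (g * x * g⁻¹) := by
      intro g x
      let e : Subgroup.centralizer ({x} : Set G) →* Subgroup.centralizer ({g * x * g⁻¹} : Set G) :=
        { toFun := fun y => ⟨g * y * g⁻¹, by
            have := y.2
            rw [Subgroup.mem_centralizer_singleton_iff] at this ⊢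
            calc g * (y : G) * g⁻¹ * (g * x * g⁻¹) = g * ((y : G) * x) * g⁻¹ := by group
              _ = _ := by rw [this]; group⟩
          map_one' := by apply Subtype.ext; show g * 1 * g⁻¹ = 1; group
          map_mul' := fun a b => by
            apply Subtype.ext
            show g * (a * b : G) * g⁻¹ = g * a * g⁻¹ * (g * b * g⁻¹)
            group }
      have he : Function.Surjective e := by
        intro y
        refine ⟨⟨g⁻¹ * y * g, ?_⟩, ?_⟩
        · have := y.2
          rw [Subgroup.mem_centralizer_singleton_iff] at this ⊢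
          calc g⁻¹ * (y : G) * g * x = g⁻¹ * ((y : G) * (g * x * g⁻¹)) * g := by group
            _ = _ := by rw [this]; group
        · apply Subtype.ext
          show g * (g⁻¹ * y * g) * g⁻¹ = y
          group
      have h1 := Solv.map_pCore_le 2 e he
      rw [hQ, hQ]
      rintro _ ⟨_, ⟨y, hy, rfl⟩, rfl⟩
      exact ⟨e y, h1 ⟨y, hy, rfl⟩, rfl⟩
    apply le_antisymm _ (hsub g x)
    intro y hy
    have h1 := hsub g⁻¹ (g * x * g⁻¹) ⟨y, hy, rfl⟩
    have h2 : g⁻¹ * (g * x * g⁻¹) * g⁻¹⁻¹ = x := by group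
    rw [h2] at h1
    refine ⟨_, h1, ?_⟩
    show g * (g⁻¹ * y * g⁻¹⁻¹) * g⁻¹ = y
    group
  · intro x hx
    have := hle hx
    rw [Subgroup.mem_centralizer_singleton_iff] at this
    exact this.symm
  · rw [← sq, ← hz]; exact pow_orderOf_eq_one z
  · intro x hx y hy
    have h1 : ⁅(⟨x, hx⟩ : Q z), ⟨y, hy⟩⁆ ∈ Subgroup.center (Q z) := hges.classTwo.mem _ _
    rcases hcen _ h1 with h2 | h2
    · left
      have h3 : x * y * x⁻¹ * y⁻¹ = 1 := h2
      calc x * y = (x * y * x⁻¹ * y⁻¹) * (y * x) := by group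
        _ = _ := by rw [h3, one_mul]
    · right
      have h3 : x * y * x⁻¹ * y⁻¹ = z := h2
      calc x * y = (x * y * x⁻¹ * y⁻¹) * (y * x) := by group
        _ = _ := by rw [h3]
  · intro x hx
    rcases hcen _ (hges.pow_mem_center ⟨x, hx⟩) with h2 | h2
    · left
      have h3 : x ^ 2 = 1 := h2
      rw [← sq, h3]
    · right
      have h3 : x ^ 2 = z := h2
      rw [← sq, h3]
  · intro x hx hc
    apply hcen ⟨x, hx⟩
    rw [Subgroup.mem_center_iff]
    intro y
    exact Subtype.ext (hc y y.2).symm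
  · intro g hg q hq
    rw [hQ] at hq ⊢
    obtain ⟨y, hy, rfl⟩ := hq
    refine ⟨⟨g, hg⟩ * y * ⟨g, hg⟩⁻¹, ?_, rfl⟩
    exact (Solv.pCore_normal 2).conj_mem y hy ⟨g, hg⟩

namespace LX

variable {Q : G → Subgroup G} {z : G}

/-- `u` is a conjugate of `z` -/
def Sg (z u : G) : Prop := ∃ g : G, g * z * g⁻¹ = u

theorem ex' (h : LX Q z) {u : G} (hu : Sg z u) : ExIn (Q u) u := by
  obtain ⟨g, rfl⟩ := hu
  rw [h.conj]
  exact h.ex.conj g

theorem cent' (h : LX Q z) {u : G} (hu : Sg z u) : Subgroup.centralizer ((Q u : Subgroup G) : Set G) ≤ Q u := by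
  obtain ⟨g, rfl⟩ := hu
  rw [h.conj]
  intro x hx
  rw [Subgroup.mem_centralizer_iff] at hx
  refine ⟨g⁻¹ * x * g, ?_, ?_⟩
  · apply h.cent
    rw [Subgroup.mem_centralizer_iff]
    intro y hy
    have h1 := hx _ ⟨y, hy, rfl⟩
    have h2 : g * y * g⁻¹ * x = x * (g * y * g⁻¹) := h1
    calc y * (g⁻¹ * x * g) = g⁻¹ * (g * y * g⁻¹ * x) * g := by group
      _ = _ := by rw [h2]; group
  · show g * (g⁻¹ * x * g) * g⁻¹ = x
    group

theorem norm' (h : LX Q z) {u : G} (hu : Sg z u) {g : G} (hg : g * u = u * g) {q : G} (hq : q ∈ Q u) : g * q * g⁻¹ ∈ Q u := by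
  obtain ⟨k, rfl⟩ := hu
  rw [h.conj] at hq ⊢
  obtain ⟨q, hq, rfl⟩ := hq
  refine ⟨(k⁻¹ * g * k) * q * (k⁻¹ * g * k)⁻¹, ?_, ?_⟩
  · apply h.norm _ _ q hq
    rw [Subgroup.mem_centralizer_singleton_iff]
    calc k⁻¹ * g * k * z = k⁻¹ * (g * (k * z * k⁻¹)) * k := by group
      _ = _ := by rw [hg]; group
  · show k * ((k⁻¹ * g * k) * q * (k⁻¹ * g * k)⁻¹) * k⁻¹ = g * (k * q * k⁻¹) * g⁻¹
    group

theorem mem_conj (h : LX Q z) {u g x : G} (hx : x ∈ Q u) : g * x * g⁻¹ ∈ Q (g * u * g⁻¹) := by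
  rw [h.conj]
  exact ⟨x, hx, rfl⟩

theorem mem_conj_iff (h : LX Q z) {u g x : G} : g * x * g⁻¹ ∈ Q (g * u * g⁻¹) ↔ x ∈ Q u := by
  constructor
  · intro hx
    have := h.mem_conj (g := g⁻¹) hx
    have e1 : g⁻¹ * (g * x * g⁻¹) * g⁻¹⁻¹ = x := by group
    have e2 : g⁻¹ * (g * u * g⁻¹) * g⁻¹⁻¹ = u := by group
    rwa [e1, e2] at this
  · exact h.mem_conj

theorem commute_of_mem (h : LX Q z) {u x : G} (hu : Sg z u) (hx : x ∈ Q u) : u * x = x * u := (h.ex' hu).central x hx

end LX

/-- a singular subgroup -/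
structure Singular (Q : G → Subgroup G) (z : G) (U : Subgroup G) : Prop where
  sq : ∀ u ∈ U, u * u = 1
  sg : ∀ u ∈ U, u ≠ 1 → ∃ g : G, g * z * g⁻¹ = u
  orth : ∀ u ∈ U, ∀ v ∈ U, u ≠ 1 → v ≠ 1 → v ∈ Q u

namespace Singular

variable {Q : G → Subgroup G} {z : G} {U : Subgroup G}

theorem le_Q (hU : Singular Q z U) {u : G} (hu : u ∈ U) (hu1 : u ≠ 1) : U ≤ Q u := by
  intro v hv
  by_cases hv1 : v = 1
  · rw [hv1]; exact one_mem _
  · exact hU.orth u hu v hv hu1 hv1

theorem comm (h : LX Q z) (hU : Singular Q z U) {u v : G} (hu : u ∈ U) (hv : v ∈ U) : u * v = v * u := by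
  by_cases hu1 : u = 1
  · rw [hu1]; simp
  · exact h.commute_of_mem (hU.sg u hu hu1) (hU.le_Q hu hu1 hv)

/-- `Q u ⊓ Q v ≤ Q (u v)` -/
theorem inf_le (h : LX Q z) (hU : Singular Q z U) {u v : G} (hu : u ∈ U) (hv : v ∈ U) (hu1 : u ≠ 1) (hv1 : v ≠ 1)
    (huv : u ≠ v) : Q u ⊓ Q v ≤ Q (u * v) := by
  have hex := h.ex' (hU.sg u hu hu1)
  obtain ⟨r, hr, hr'⟩ := hex.exists_noncomm (hU.orth u hu v hv hu1 hv1) hv1 (Ne.symm huv)
  rintro w ⟨hw1, hw2⟩
  rw [← hr']
  have h1 : r⁻¹ * w * r ∈ Q v := by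
    have huQ : u ∈ Q v := hU.orth v hv u hu hv1 hu1
    rcases hex.com w hw1 r hr with h2 | h2
    · have : r⁻¹ * w * r = w := by rw [mul_assoc, h2]; group
      rw [this]; exact hw2
    · have : r⁻¹ * w * r = u * w := by
        rw [mul_assoc, h2]
        calc r⁻¹ * (u * (r * w)) = r⁻¹ * (u * r) * w := by group
          _ = u * w := by rw [hex.central r hr]; group
      rw [this]; exact mul_mem huQ hw2
  have h3 := h.mem_conj (g := r) h1
  have e : r * (r⁻¹ * w * r) * r⁻¹ = w := by group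
  rwa [e] at h3

/-- the join of the `Q u` normalises `U` -/
theorem join_norm (h : LX Q z) (hU : Singular Q z U) {g : G} (hg : g ∈ ⨆ u ∈ ((U : Set G) \ {1}), Q u) {v : G} (hv : v ∈ U) :
    g * v * g⁻¹ ∈ U := by
  have hle : (⨆ u ∈ ((U : Set G) \ {1}), Q u) ≤ Subgroup.normalizer (U : Set G) := by
    apply iSup₂_le
    rintro u ⟨hu, hu1⟩ g hg
    rw [Set.mem_singleton_iff] at hu1
    have key : ∀ g ∈ Q u, ∀ v ∈ U, g * v * g⁻¹ ∈ U := by
      intro g hg v hv
      rcases (h.ex' (hU.sg u hu hu1)).com g hg v (hU.le_Q hu hu1 hv) with h2 | h2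
      · rw [h2]
        have : v * g * g⁻¹ = v := by group
        rw [this]; exact hv
      · rw [h2]
        have : u * (v * g) * g⁻¹ = u * v := by group
        rw [this]; exact mul_mem hu hv
    rw [Subgroup.mem_normalizer_iff]
    intro v
    constructor
    · intro hv; exact key g hg v hv
    · intro hv
      have := key g⁻¹ (inv_mem hg) _ hv
      have e : g⁻¹ * (g * v * g⁻¹) * g⁻¹⁻¹ = v := by group
      rwa [e] at this
  have := hle hg
  rw [Subgroup.mem_normalizer_iff] at this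
  exact (this v).1 hv

theorem le_join {u : G} (hu : u ∈ U) (hu1 : u ≠ 1) : Q u ≤ ⨆ u ∈ ((U : Set G) \ {1}), Q u :=
  le_iSup₂_of_le u ⟨hu, hu1⟩ le_rfl

/-- transvections -/
theorem exists_transvection [Finite G] (h : LX Q z) (hU : Singular Q z U) {W : Subgroup G} (hW : W ≤ U) {y y' : G} (hy : y ∈ U) (hy' : y' ∈ U)
    (hyW : y ∉ W) (hyW' : y' ∉ W) : ∃ t ∈ ⨆ u ∈ ((U : Set G) \ {1}), Q u, (∀ w ∈ W, t * w * t⁻¹ = w) ∧ t * y * t⁻¹ = y' := by
  by_cases hyy : y = y'
  · exact ⟨1, one_mem _, fun w _ => by group, by rw [hyy]; group⟩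
  set a := y' * y with ha
  have haU : a ∈ U := mul_mem hy' hy
  have ha1 : a ≠ 1 := by
    intro h1
    apply hyy
    have h2 := hU.sq y hy
    have h3 : y' * y = 1 := h1
    calc y = (y' * y) * y := by rw [h3, one_mul]
      _ = y' * (y * y) := by group
      _ = y' := by rw [h2, mul_one]
  have hex := h.ex' (hU.sg a haU ha1)
  -- E = W ∪ W a
  let E : Subgroup G :=
    { carrier := {x | x ∈ U ∧ (x ∈ W ∨ a * x ∈ W)}
      one_mem' := ⟨U.one_mem, Or.inl W.one_mem⟩
      mul_mem' := by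
        rintro x x' ⟨hx, hx1⟩ ⟨hx', hx1'⟩
        refine ⟨mul_mem hx hx', ?_⟩
        have haa : a * a = 1 := hU.sq a haU
        rcases hx1 with hx1 | hx1 <;> rcases hx1' with hx1' | hx1'
        · left; exact mul_mem hx1 hx1'
        · right
          have : a * (x * x') = x * (a * x') := by rw [← mul_assoc, hU.comm h haU hx, mul_assoc]
          rw [this]; exact mul_mem hx1 hx1'
        · right
          rw [← mul_assoc]; exact mul_mem hx1 hx1'
        · left
          have : x * x' = (a * x) * (a * x') := by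
            calc x * x' = (a * a) * (x * x') := by rw [haa, one_mul]
              _ = a * (a * x) * x' := by group
              _ = a * (x * a) * x' := by rw [hU.comm h haU hx]
              _ = _ := by group
          rw [this]; exact mul_mem hx1 hx1'
      inv_mem' := by
        rintro x ⟨hx, hx1⟩
        have : x⁻¹ = x := inv_eq_of_mul_eq_one_left (hU.sq x hx)
        rw [this]; exact ⟨hx, hx1⟩ }
  have hEle : E ≤ Q a := fun x hx => hU.le_Q haU ha1 hx.1
  have haE : a ∈ E := ⟨haU, Or.inr (by rw [hU.sq a haU]; exact one_mem _)⟩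
  have hyE : y ∉ E := by
    rintro ⟨_, h1 | h1⟩
    · exact hyW h1
    · rw [ha, mul_assoc, hU.sq y hy, mul_one] at h1
      exact hyW' h1
  obtain ⟨t, ht, htE, hty⟩ := hex.exists_move hEle haE (hU.le_Q haU ha1 hy) hyE
  refine ⟨t, le_join haU ha1 ht, ?_, ?_⟩
  · intro w hw
    rw [htE w ⟨hW hw, Or.inl hw⟩]; group
  · rw [hty, ha, mul_assoc, hU.sq y hy, mul_one]

end Singular

end Cfsg.Agent.H93.LargeEx
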